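import Cfsg.Agent.H73.MetaCoord
import Cfsg.Agent.PGroup.ClassTwo
import Mathlib.GroupTheory.Index

/-!
The elements of order at most `p²` in a metacyclic p-group (`p` odd) without cyclic maximal
subgroup.
-/

set_option autoImplicit false
set_option linter.style.haveILetI false

namespace Cfsg.Agent.MetaOmega

open Subgroup
open Cfsg.Agent.H73
open scoped commutatorElement

variable {L : Type*} [Group L] [Finite L] {p : ℕ} [Fact p.Prime]

/-- No cyclic maximal subgroup: no cyclic subgroup of index dividing `p` in a nontrivial group. -/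
theorem index_not_dvd (hp : p.Prime) (hL : IsPGroup p L) (hnt : Nontrivial L)
    (hnc : ∀ C : Subgroup L, IsCyclic C → C.index ≠ p) {C : Subgroup L} (hC : IsCyclic C) :
    ¬ C.index ∣ p := by
  intro h
  rcases (Nat.dvd_prime hp).1 h with h1 | h1
  · rw [index_eq_one] at h1
    subst h1
    obtain ⟨g, hg⟩ := hC.exists_generator
    obtain ⟨k, hk⟩ := IsPGroup.iff_orderOf.1 hL (g : L)
    have hcard : Nat.card L = orderOf (g : L) := by
      rw [orderOf_coe, orderOf_eq_card_of_forall_mem_zpowers hg, card_top]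
    have hk0 : k ≠ 0 := fun h0 => by
      rw [hk, h0, pow_zero] at hcard
      exact (Finite.one_lt_card (α := L)).ne' hcard
    refine hnc (zpowers ((g : L) ^ p)) inferInstance ?_
    have h2 := (zpowers ((g : L) ^ p)).card_mul_index
    have hdvd : p ∣ p ^ k := dvd_pow_self p hk0
    rw [Nat.card_zpowers, orderOf_pow' _ hp.ne_zero, hcard, hk, Nat.gcd_eq_right hdvd] at h2
    have hpos : 0 < p ^ k / p := Nat.div_pos (Nat.le_of_dvd (pow_pos hp.pos k) hdvd) hp.pos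
    exact Nat.eq_of_mul_eq_mul_left hpos (h2.trans (Nat.div_mul_cancel hdvd).symm)
  · exact hnc C hC h1

omit [Finite L] [Fact p.Prime] in
theorem pow_conj {a h : L} {ρ : ℤ} (hh : h * a * h⁻¹ = a ^ ρ) (i : ℤ) :
    ∀ N : ℕ, (a ^ i * h) ^ N = a ^ (i * Geom.S ρ N) * h ^ N
  | 0 => by simp
  | N + 1 => by
    have hj : ∀ (N : ℕ) (i : ℤ), h ^ N * a ^ i * (h ^ N)⁻¹ = a ^ (ρ ^ N * i) := by
      intro N
      induction N with
      | zero => intro i; simp
      | succ N ih =>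
        intro i
        rw [pow_succ', show h * h ^ N * a ^ i * (h * h ^ N)⁻¹ = h * (h ^ N * a ^ i * (h ^ N)⁻¹) * h⁻¹ by group,
          ih, ← conj_zpow, hh, ← zpow_mul, pow_succ', mul_assoc]
    rw [pow_succ, pow_conj hh i N, Geom.S_succ, mul_add, zpow_add, mul_comm i (ρ ^ N), ← hj N i]
    group

/-- The part of a metacyclic group carrying the elements of order dividing `p²`. -/
theorem exists_frame (hp2 : p ≠ 2) (hL : IsPGroup p L) (hmc : Cfsg.IsMetacyclic L) (hnt : Nontrivial L)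
    (hnc : ∀ C : Subgroup L, IsCyclic C → C.index ≠ p) :
    ∃ u g : L, u ^ p ^ 2 = 1 ∧ g ^ p ^ 2 = 1 ∧ Commute g (u ^ p) ∧
      (∃ i : ℤ, ⁅g, u⁆ = (u ^ p) ^ i) ∧
      (∀ x : L, x ^ p ^ 2 = 1 → x ∈ closure ({u, g} : Set L)) ∧
      (∀ i j : ℤ, u ^ i * g ^ j = 1 → (p : ℤ) ^ 2 ∣ i ∧ (p : ℤ) ^ 2 ∣ j) ∧
      p ^ 4 ∣ Nat.card L ∧
      ∃ N : Subgroup L, IsCyclic N ∧ commutator L ≤ N := by
  classical
  have hp : p.Prime := Fact.out
  obtain ⟨D⟩ := Meta.exists_data hL hmc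
  set a := D.a with ha
  set b := D.b with hb
  set N := zpowers a with hN
  have hbN : ∀ (j : ℕ) (i : ℤ), b ^ j * a ^ i * (b ^ j)⁻¹ = a ^ (D.r ^ j * i) := fun j i => D.conj_pow i j
  haveI hNn : N.Normal := by
    refine ⟨fun x hx g => ?_⟩
    obtain ⟨i, rfl⟩ := hx
    obtain ⟨k, j, rfl⟩ := D.surj g
    show a ^ k * b ^ j * a ^ i * (a ^ k * b ^ j)⁻¹ ∈ N
    rw [show a ^ k * b ^ j * a ^ i * (a ^ k * b ^ j)⁻¹ = a ^ k * (b ^ j * a ^ i * (b ^ j)⁻¹) * (a ^ k)⁻¹ by group,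
      hbN]
    exact mul_mem (mul_mem ⟨k, rfl⟩ ⟨_, rfl⟩) (inv_mem ⟨k, rfl⟩)
  obtain ⟨n, hn⟩ := IsPGroup.iff_orderOf.1 hL a
  obtain ⟨k, hk⟩ := IsPGroup.iff_orderOf.1 (hL.to_quotient N) (b : L ⧸ N)
  have hgen : ∀ q : L ⧸ N, q ∈ zpowers (b : L ⧸ N) := fun q => by
    obtain ⟨g, rfl⟩ := QuotientGroup.mk_surjective q
    obtain ⟨i, j, rfl⟩ := D.surj g
    show ((a ^ i * b ^ j : L) : L ⧸ N) ∈ _
    rw [QuotientGroup.mk_mul, (QuotientGroup.eq_one_iff (N := N) (a ^ i)).2 ⟨i, rfl⟩, one_mul, QuotientGroup.mk_pow]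
    exact ⟨j, zpow_natCast _ _⟩
  have hidx : N.index = p ^ k := by
    rw [index_eq_card, ← hk, orderOf_eq_card_of_forall_mem_zpowers hgen]
  have hcard : Nat.card L = p ^ n * p ^ k := by
    rw [← N.card_mul_index, hidx, hN, Nat.card_zpowers, hn]
  have hk2 : 2 ≤ k := by
    by_contra hlt
    refine index_not_dvd hp hL hnt hnc (C := N) inferInstance ?_
    rw [hidx]
    conv_rhs => rw [← pow_one p]
    exact pow_dvd_pow p (by omega)
  have small : ∀ s ≤ 1, a ^ p ^ s ∈ zpowers b → False := by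
    intro s hs hmem
    refine index_not_dvd hp hL hnt hnc (C := zpowers b) inferInstance ?_
    set C := zpowers b
    have hle : C.index ≤ p ^ s := by
      rw [index_eq_card]
      refine (Nat.card_le_card_of_surjective (fun i : Fin (p ^ s) => ((a ^ (i : ℕ) : L) : L ⧸ C)) ?_).trans
        (by simp)
      intro q
      obtain ⟨x, rfl⟩ := QuotientGroup.mk_surjective q
      obtain ⟨i, j, rfl⟩ := D.surj x
      have hpos : (0 : ℤ) < ((p ^ s : ℕ) : ℤ) := by exact_mod_cast pow_pos hp.pos s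
      refine ⟨⟨(i % ((p ^ s : ℕ) : ℤ)).toNat, ?_⟩, ?_⟩
      · have := Int.emod_lt_of_pos i hpos
        have := Int.emod_nonneg i hpos.ne'
        omega
      refine QuotientGroup.eq.2 ?_
      show (a ^ _)⁻¹ * (a ^ i * b ^ j) ∈ C
      rw [← mul_assoc, ← zpow_natCast a (i % ((p ^ s : ℕ) : ℤ)).toNat,
        Int.toNat_of_nonneg (Int.emod_nonneg i hpos.ne'), ← zpow_neg, ← zpow_add,
        show -(i % ((p ^ s : ℕ) : ℤ)) + i = ((p ^ s : ℕ) : ℤ) * (i / ((p ^ s : ℕ) : ℤ)) by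
          have := Int.mul_ediv_add_emod i ((p ^ s : ℕ) : ℤ); linarith,
        zpow_mul, zpow_natCast]
      exact mul_mem (zpow_mem hmem _) (pow_mem (mem_zpowers b) j)
    obtain ⟨e, he⟩ := hL.index C
    rw [he] at hle ⊢
    have hes := (Nat.pow_le_pow_iff_right hp.one_lt).1 hle
    conv_rhs => rw [← pow_one p]
    exact pow_dvd_pow p (hes.trans hs)
  have hn2 : 2 ≤ n := by
    by_contra hlt
    refine small n (by omega) ?_
    rw [← hn, pow_orderOf_eq_one]; exact one_mem _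
  obtain ⟨t, ht⟩ := mem_zpowers_iff.1 (show b ^ p ^ k ∈ N by
    rw [← QuotientGroup.eq_one_iff, QuotientGroup.mk_pow, ← hk, pow_orderOf_eq_one])
  have hpn : a ^ ((p : ℤ) ^ n) = 1 := by
    rw [show ((p : ℤ) ^ n) = ((p ^ n : ℕ) : ℤ) by push_cast; rfl, zpow_natCast, ← hn, pow_orderOf_eq_one]
  have hzero : ∀ x : ℤ, a ^ x = 1 ↔ (p : ℤ) ^ n ∣ x := fun x => by
    rw [← orderOf_dvd_iff_zpow_eq_one, hn]; push_cast; rfl
  have hcop : ∀ w : ℤ, ¬ (p : ℤ) ∣ w → ∀ e : ℕ, IsCoprime ((p : ℤ) ^ e) w := fun w hw e =>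
    ((Prime.coprime_iff_not_dvd (Nat.prime_iff_prime_int.1 hp)).2 hw).pow_left
  have root : ∀ (s : ℕ) (t' : ℤ), t = (p : ℤ) ^ s * t' → ¬ (p : ℤ) ∣ t' → s ≤ 1 → False := by
    intro s t' hts hnd hs
    obtain ⟨x, y, hxy⟩ := hcop t' hnd n
    refine small s hs ⟨((p ^ k : ℕ) : ℤ) * y, ?_⟩
    show b ^ (((p ^ k : ℕ) : ℤ) * y) = a ^ p ^ s
    rw [zpow_mul, zpow_natCast, ← ht, ← zpow_mul, hts, ← zpow_natCast a (p ^ s)]
    rw [← mul_inv_eq_one, ← zpow_neg, ← zpow_add, hzero]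
    exact ⟨-x * (p : ℤ) ^ s, by push_cast; linear_combination (p : ℤ) ^ s * hxy⟩
  obtain ⟨t₂, ht2⟩ : (p : ℤ) ^ 2 ∣ t := by
    by_cases h1 : (p : ℤ) ∣ t
    · obtain ⟨t', rfl⟩ := h1
      by_cases h2 : (p : ℤ) ∣ t'
      · obtain ⟨t'', rfl⟩ := h2; exact ⟨t'', by ring⟩
      · exact (root 1 t' (by rw [pow_one]) h2 le_rfl).elim
    · exact (root 0 t (by rw [pow_zero, one_mul]) h1 zero_le_one).elim
  set m := p ^ (k - 2) with hm
  have hmk : m * p ^ 2 = p ^ k := by rw [hm, ← pow_add]; congr 1; omega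
  set ρ := D.r ^ m with hρ
  have hρ1 : (p : ℤ) ∣ ρ - 1 := Geom.pow_one_mod D.r_one m
  obtain ⟨u₀, hu0, hu1⟩ := Geom.S_pow hp hp2 2 hρ1
  obtain ⟨x₀, y₀, hxy₀⟩ := hcop u₀ (Geom.not_dvd_of_dvd_sub_one hp hu1) n
  have hbm : b ^ m * a * (b ^ m)⁻¹ = a ^ ρ := by
    conv_lhs => rw [← zpow_one a]
    rw [hbN, mul_one]
  set g := a ^ (-t₂ * y₀) * b ^ m with hg
  have hga : ∀ i : ℤ, g * a ^ i * g⁻¹ = a ^ (ρ * i) := fun i => by
    rw [hg, mul_inv_rev, show a ^ (-t₂ * y₀) * b ^ m * a ^ i * ((b ^ m)⁻¹ * (a ^ (-t₂ * y₀))⁻¹)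
      = a ^ (-t₂ * y₀) * (b ^ m * a ^ i * (b ^ m)⁻¹) * (a ^ (-t₂ * y₀))⁻¹ by group, hbN, ← zpow_neg,
      ← zpow_add, ← zpow_add]
    congr 1; rw [hρ]; ring
  have hgp : g ^ p ^ 2 = 1 := by
    rw [hg, pow_conj hbm, ← pow_mul, hmk, ← ht, ← zpow_add, hzero, hu0, ht2]
    exact ⟨x₀ * ((p : ℤ) ^ 2 * t₂), by linear_combination (-(p : ℤ) ^ 2 * t₂) * hxy₀⟩
  have hnpow : p ^ (n - 2) * p ^ 2 = p ^ n := by rw [← pow_add]; congr 1; omega
  set u := a ^ p ^ (n - 2) with hu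
  have huz : u = a ^ ((p ^ (n - 2) : ℕ) : ℤ) := (zpow_natCast _ _).symm
  have hup : u ^ p = a ^ ((p : ℤ) ^ (n - 1)) := by
    rw [hu, ← pow_mul, show ((p : ℤ) ^ (n - 1)) = ((p ^ (n - 2) * p : ℕ) : ℤ) by
      push_cast; rw [← pow_succ]; congr 1; omega, zpow_natCast]
  have hlevel : (p : ℤ) ^ (n - 1) * p = (p : ℤ) ^ n := by rw [← pow_succ]; congr 1; omega
  have hlevel2 : (p : ℤ) ^ (n - 2) * p = (p : ℤ) ^ (n - 1) := by rw [← pow_succ]; congr 1; omega
  have hlevel3 : (p : ℤ) ^ (n - 2) * (p : ℤ) ^ 2 = (p : ℤ) ^ n := by exact_mod_cast hnpow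
  obtain ⟨c, hc⟩ := hρ1
  refine ⟨u, g, by rw [hu, ← pow_mul, hnpow, ← hn, pow_orderOf_eq_one], hgp, ?_, ⟨c, ?_⟩, ?_, ?_, ?_,
    N, inferInstance, ?_⟩
  · show g * u ^ p = u ^ p * g
    rw [hup, ← mul_inv_eq_iff_eq_mul, hga, ← mul_inv_eq_one, ← zpow_neg, ← zpow_add, hzero]
    exact ⟨c, by linear_combination ((p : ℤ) ^ (n - 1)) * hc + c * hlevel⟩
  · rw [commutatorElement_def, hup, huz, hga, ← zpow_neg, ← zpow_add, ← zpow_mul]
    congr 1
    push_cast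
    linear_combination ((p : ℤ) ^ (n - 2)) * hc + c * hlevel2
  · intro x hx
    obtain ⟨i, j, rfl⟩ := D.surj x
    have hjq : (b : L ⧸ N) ^ (j * p ^ 2) = 1 := by
      have h1 := congrArg (fun y : L => (y : L ⧸ N)) hx
      simp only [QuotientGroup.mk_pow, QuotientGroup.mk_one, QuotientGroup.mk_mul,
        ← hb, ← ha, (QuotientGroup.eq_one_iff (N := N) (a ^ i)).2 ⟨i, rfl⟩, one_mul] at h1
      rwa [← pow_mul] at h1
    rw [← orderOf_dvd_iff_pow_eq_one, hk, ← hmk] at hjq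
    obtain ⟨j', rfl⟩ := Nat.dvd_of_mul_dvd_mul_right (pow_pos hp.pos 2) hjq
    have hgj : g ^ j' = a ^ (-t₂ * y₀ * Geom.S ρ j') * b ^ (m * j') := by
      rw [hg, pow_conj hbm, pow_mul]
    have hxe : a ^ i * b ^ (m * j') = a ^ (i - -t₂ * y₀ * Geom.S ρ j') * g ^ j' := by
      rw [hgj, ← mul_assoc, ← zpow_add, sub_add_cancel]
    rw [hxe] at hx ⊢
    have hgja : g ^ j' * a * (g ^ j')⁻¹ = a ^ (ρ ^ j') := by
      clear hx hxe hgj hjq
      induction j' with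
      | zero => simp
      | succ j' ih =>
        rw [pow_succ', show g * g ^ j' * a * (g * g ^ j')⁻¹ = g * (g ^ j' * a * (g ^ j')⁻¹) * g⁻¹ by group,
          ih, hga, pow_succ']
    rw [pow_conj hgja, pow_right_comm g j', hgp, one_pow, mul_one, hzero] at hx
    obtain ⟨v, hv, hv1⟩ := Geom.S_pow hp hp2 2 (Geom.pow_one_mod (dvd_of_eq (a := (p : ℤ)) rfl |>.trans ⟨c, hc⟩) j')
    rw [hv, ← hlevel3, show (i - -t₂ * y₀ * Geom.S ρ j') * ((p : ℤ) ^ 2 * v) =
      ((i - -t₂ * y₀ * Geom.S ρ j') * v) * (p : ℤ) ^ 2 by ring,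
      mul_dvd_mul_iff_right (pow_ne_zero 2 (by exact_mod_cast hp.ne_zero))] at hx
    obtain ⟨i', hi'⟩ := (hcop v (Geom.not_dvd_of_dvd_sub_one hp hv1) (n - 2)).dvd_of_dvd_mul_right hx
    rw [hi']
    refine mul_mem ?_ (pow_mem (subset_closure (by simp)) _)
    rw [show a ^ ((p : ℤ) ^ (n - 2) * i') = u ^ i' by rw [huz, ← zpow_mul]; push_cast; rfl]
    exact zpow_mem (subset_closure (by simp)) _
  · intro i j hij
    have hgq : (g : L ⧸ N) = (b : L ⧸ N) ^ m := by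
      rw [hg, QuotientGroup.mk_mul, (QuotientGroup.eq_one_iff (N := N) (a ^ _)).2 ⟨_, rfl⟩, one_mul, QuotientGroup.mk_pow]
    have huq : (u : L ⧸ N) = 1 := (QuotientGroup.eq_one_iff (N := N) u).2 (pow_mem (mem_zpowers a) _)
    have h1 := congrArg (fun y : L => (y : L ⧸ N)) hij
    simp only [QuotientGroup.mk_mul, QuotientGroup.mk_zpow, QuotientGroup.mk_one, huq, hgq, one_zpow,
      one_mul] at h1
    rw [← zpow_natCast, ← zpow_mul, ← orderOf_dvd_iff_zpow_eq_one, hk, ← hmk] at h1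
    push_cast at h1
    have hj : (p : ℤ) ^ 2 ∣ j :=
      (mul_dvd_mul_iff_left (by exact_mod_cast (pow_pos hp.pos (k - 2)).ne')).1 h1
    refine ⟨?_, hj⟩
    obtain ⟨j₁, rfl⟩ := hj
    rw [show g ^ ((p : ℤ) ^ 2 * j₁) = 1 by
      rw [zpow_mul, show ((p : ℤ) ^ 2) = ((p ^ 2 : ℕ) : ℤ) by push_cast; rfl, zpow_natCast, hgp, one_zpow],
      mul_one, huz, ← zpow_mul, hzero] at hij
    push_cast at hij
    rw [← hlevel3, mul_dvd_mul_iff_left (pow_ne_zero _ (by exact_mod_cast hp.ne_zero))] at hij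
    exact hij
  · rw [hcard, ← pow_add]
    exact pow_dvd_pow p (by omega)
  · rw [← Normal.quotient_commutative_iff_commutator_le]
    refine ⟨⟨fun x y => ?_⟩⟩
    obtain ⟨i, rfl⟩ := hgen x
    obtain ⟨j, rfl⟩ := hgen y
    exact ((Commute.refl (b : L ⧸ N)).zpow_zpow i j).eq

/-- The subgroup of elements of order dividing `p²`, with its properties. -/
theorem exists_omega (hp2 : p ≠ 2) (hL : IsPGroup p L) (hmc : Cfsg.IsMetacyclic L) (hnt : Nontrivial L)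
    (hnc : ∀ C : Subgroup L, IsCyclic C → C.index ≠ p) :
    ∃ J E : Subgroup L, (∀ x, x ∈ J ↔ x ^ p ^ 2 = 1) ∧ (∀ x, x ∈ E ↔ x ^ p = 1) ∧
      (∀ x ∈ J, ∀ y ∈ J, (x * y) ^ p = x ^ p * y ^ p) ∧
      (∀ e ∈ E, ∀ x ∈ J, Commute e x) ∧
      (∀ e ∈ E, ∃ w ∈ J, w ^ p = e) ∧ Nat.card E = p ^ 2 ∧ p ^ 4 ∣ Nat.card L ∧
      ∃ N : Subgroup L, IsCyclic N ∧ commutator L ≤ N := by
  classical
  have hp : p.Prime := Fact.out
  obtain ⟨u, g, hu, hg, hgz, ⟨c, hc⟩, hall, hind, hdvd, hN⟩ := exists_frame hp2 hL hmc hnt hnc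
  set J := closure ({u, g} : Set L) with hJ
  let U : J := ⟨u, subset_closure (by simp)⟩
  let Gg : J := ⟨g, subset_closure (by simp)⟩
  have hgenJ : closure ({U, Gg} : Set J) = ⊤ := by
    refine map_injective J.subtype_injective ?_
    rw [MonoidHom.map_closure, ← MonoidHom.range_eq_map, Subgroup.range_subtype, Set.image_pair]
    rfl
  have hzc : U ^ p ∈ center J := by
    rw [mem_center_iff]
    intro y
    have hle : (⊤ : Subgroup J) ≤ centralizer {U ^ p} := by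
      rw [← hgenJ, closure_le]
      rintro y (rfl | rfl)
      · exact mem_centralizer_singleton_iff.2 ((Commute.refl U).pow_right p).eq
      · exact mem_centralizer_singleton_iff.2 (Subtype.ext hgz.eq)
    exact mem_centralizer_singleton_iff.1 (hle (mem_top y))
  have hclass : ∀ x y : J, ⁅x, y⁆ ∈ zpowers (U ^ p) := by
    haveI : (zpowers (U ^ p)).Normal := ⟨fun z hz y => by
      rw [mem_center_iff.1 ((zpowers_le.2 hzc) hz) y, mul_inv_cancel_right]; exact hz⟩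
    set Q := zpowers (U ^ p)
    have hcomm : Commute (Gg : J ⧸ Q) (U : J ⧸ Q) := by
      rw [commute_iff_eq, ← commutatorElement_eq_one_iff_mul_comm]
      show ⁅QuotientGroup.mk' Q Gg, QuotientGroup.mk' Q U⁆ = 1
      rw [← map_commutatorElement, QuotientGroup.mk'_apply, QuotientGroup.eq_one_iff]
      exact ⟨c, Subtype.ext (show (u ^ p) ^ c = ⁅g, u⁆ from hc.symm)⟩
    intro x y
    rw [← QuotientGroup.eq_one_iff, ← QuotientGroup.mk'_apply, map_commutatorElement,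
      commutatorElement_eq_one_iff_mul_comm]
    have hle : ∀ z : J, ((z : J ⧸ Q)) ∈ closure ({(U : J ⧸ Q), (Gg : J ⧸ Q)} : Set (J ⧸ Q)) := fun z => by
      have h1 := mem_map_of_mem (QuotientGroup.mk' Q) (hgenJ.ge (mem_top z))
      rwa [MonoidHom.map_closure, Set.image_pair] at h1
    haveI := isMulCommutative_closure (k := ({(U : J ⧸ Q), (Gg : J ⧸ Q)} : Set (J ⧸ Q))) (by
      rintro a (rfl | rfl) b (rfl | rfl)
      · rfl
      · exact hcomm.symm.eq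
      · exact hcomm.eq
      · rfl)
    exact congrArg Subtype.val (mul_comm' (⟨_, hle x⟩ : closure ({(U : J ⧸ Q), (Gg : J ⧸ Q)} : Set (J ⧸ Q))) ⟨_, hle y⟩)
  have hpow : ∀ x y : J, (x * y) ^ p = x ^ p * y ^ p := by
    intro x y
    obtain ⟨i, hi⟩ := hclass y x
    refine PGroup.mul_pow_of_odd (hp.odd_of_ne_two hp2) (hi ▸ zpow_mem hzc i) ?_
    rw [← hi, ← zpow_natCast, ← zpow_mul, mul_comm, zpow_mul, zpow_natCast, ← pow_mul, ← pow_two,
      show U ^ p ^ 2 = 1 from Subtype.ext hu, one_zpow]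
  let φ : J →* J := { toFun := fun x => x ^ p, map_one' := one_pow p, map_mul' := hpow }
  have hJ2 : ∀ x : J, x ^ p ^ 2 = 1 := by
    have hle : (⊤ : Subgroup J) ≤ (φ.comp φ).ker := by
      rw [← hgenJ, closure_le]
      rintro y (rfl | rfl)
      · refine MonoidHom.mem_ker.2 (show (U ^ p) ^ p = 1 from ?_)
        rw [← pow_mul, ← pow_two]; exact Subtype.ext hu
      · refine MonoidHom.mem_ker.2 (show (Gg ^ p) ^ p = 1 from ?_)
        rw [← pow_mul, ← pow_two]; exact Subtype.ext hg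
    intro x
    have h := hle (mem_top x)
    rw [pow_two, pow_mul]
    exact h
  have hJmem : ∀ x, x ∈ J ↔ x ^ p ^ 2 = 1 := fun x =>
    ⟨fun hx => congrArg Subtype.val (hJ2 ⟨x, hx⟩), hall x⟩
  let E : Subgroup L := φ.ker.map J.subtype
  have hEmem : ∀ x, x ∈ E ↔ x ^ p = 1 := by
    intro x
    constructor
    · rintro ⟨y, hy, rfl⟩; exact congrArg Subtype.val (show y ^ p = 1 from hy)
    · intro hx
      refine ⟨⟨x, (hJmem x).2 (by rw [pow_two, pow_mul, hx, one_pow])⟩, Subtype.ext hx, rfl⟩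
  have hform : ∀ x : J, ∃ i j : ℕ, x ^ p = (U ^ p) ^ i * (Gg ^ p) ^ j := by
    intro x
    have hle : (⊤ : Subgroup J).map φ ≤ zpowers (U ^ p) ⊔ zpowers (Gg ^ p) := by
      rw [← hgenJ, MonoidHom.map_closure, Set.image_pair, closure_le]
      rintro y (rfl | rfl)
      · exact mem_sup_left (mem_zpowers _)
      · exact mem_sup_right (mem_zpowers _)
    haveI : (zpowers (U ^ p)).Normal := ⟨fun z hz y => by
      rw [mem_center_iff.1 ((zpowers_le.2 hzc) hz) y, mul_inv_cancel_right]; exact hz⟩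
    obtain ⟨y, hy, z, hz, hyz⟩ := mem_sup_of_normal_left.1 (hle ⟨x, mem_top x, rfl⟩)
    obtain ⟨i, rfl⟩ := (isOfFinOrder_of_finite (U ^ p)).mem_powers_iff_mem_zpowers.2 hy
    obtain ⟨j, rfl⟩ := (isOfFinOrder_of_finite (Gg ^ p)).mem_powers_iff_mem_zpowers.2 hz
    exact ⟨i, j, hyz.symm⟩
  have hind' : ∀ i j : ℕ, (U ^ p) ^ i * (Gg ^ p) ^ j = 1 → p ∣ i ∧ p ∣ j := by
    intro i j h
    have h1 : u ^ ((p * i : ℕ) : ℤ) * g ^ ((p * j : ℕ) : ℤ) = 1 := by
      rw [zpow_natCast, zpow_natCast, pow_mul, pow_mul]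
      exact congrArg Subtype.val h
    obtain ⟨a1, a2⟩ := hind _ _ h1
    have hp0 : (p : ℕ) ≠ 0 := hp.ne_zero
    constructor
    · have : p ^ 2 ∣ p * i := by exact_mod_cast a1
      rwa [pow_two, Nat.mul_dvd_mul_iff_left hp.pos] at this
    · have : p ^ 2 ∣ p * j := by exact_mod_cast a2
      rwa [pow_two, Nat.mul_dvd_mul_iff_left hp.pos] at this
  have hroot : ∀ e ∈ E, ∃ i j : ℕ, e = ((U : L) ^ p) ^ i * ((Gg : L) ^ p) ^ j := by
    intro e he
    have hx : e ∈ J := (hJmem e).2 (by rw [pow_two, pow_mul, (hEmem e).1 he, one_pow])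
    have hle : (⊤ : Subgroup J) ≤ zpowers U ⊔ zpowers Gg := by
      rw [← hgenJ, closure_le]
      rintro y (rfl | rfl)
      · exact mem_sup_left (mem_zpowers _)
      · exact mem_sup_right (mem_zpowers _)
    haveI : (zpowers U).Normal := by
      refine ⟨fun z hz y => ?_⟩
      obtain ⟨i, hi⟩ := hclass y z
      rw [show y * z * y⁻¹ = ⁅y, z⁆ * z by rw [commutatorElement_def, inv_mul_cancel_right], ← hi]
      exact mul_mem (zpow_mem (pow_mem (mem_zpowers U) p) i) hz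
    obtain ⟨y, hy, z, hz, hyz⟩ := mem_sup_of_normal_left.1 (hle (mem_top (⟨e, hx⟩ : J)))
    obtain ⟨i, rfl⟩ := (isOfFinOrder_of_finite U).mem_powers_iff_mem_zpowers.2 hy
    obtain ⟨j, rfl⟩ := (isOfFinOrder_of_finite Gg).mem_powers_iff_mem_zpowers.2 hz
    have he1 : ((U : J) ^ i * Gg ^ j) ^ p = 1 := by
      rw [hyz]; exact Subtype.ext ((hEmem e).1 he)
    rw [hpow, ← pow_mul, ← pow_mul, mul_comm i, mul_comm j, pow_mul, pow_mul] at he1
    obtain ⟨⟨i', rfl⟩, ⟨j', rfl⟩⟩ := hind' i j he1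
    refine ⟨i', j', ?_⟩
    have := congrArg Subtype.val hyz
    simp only [Subgroup.coe_mul, SubmonoidClass.coe_pow] at this
    rw [← this, pow_mul, pow_mul]
  refine ⟨J, E, hJmem, hEmem, fun x hx y hy => congrArg Subtype.val (hpow ⟨x, hx⟩ ⟨y, hy⟩), ?_, ?_, ?_,
    hdvd, hN⟩
  · intro e he x hx
    obtain ⟨i, j, rfl⟩ := hroot e he
    have hcen : ∀ y : J, y ^ p ∈ center J := by
      intro y
      refine mem_center_iff.2 fun w => ?_
      have h1 : w * y ^ p * w⁻¹ = (⁅w, y⁆ * y) ^ p := by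
        rw [← conj_pow, commutatorElement_def, inv_mul_cancel_right]
      obtain ⟨i, hi⟩ := hclass w y
      rw [hpow, ← hi, ← zpow_natCast ((U ^ p) ^ i), ← zpow_mul, mul_comm i, zpow_mul, zpow_natCast,
        ← pow_mul, ← pow_two, show U ^ p ^ 2 = 1 from Subtype.ext hu, one_zpow, one_mul] at h1
      exact mul_inv_eq_iff_eq_mul.1 h1
    have h1 := mem_center_iff.1 (mul_mem (pow_mem (hcen U) i) (pow_mem (hcen Gg) j)) ⟨x, hx⟩
    exact (congrArg Subtype.val h1).symm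
  · intro e he
    obtain ⟨i, j, rfl⟩ := hroot e he
    refine ⟨((U ^ i * Gg ^ j : J) : L), (U ^ i * Gg ^ j).2, ?_⟩
    rw [← SubmonoidClass.coe_pow, hpow, ← pow_mul, ← pow_mul, mul_comm i, mul_comm j, pow_mul, pow_mul]
    rfl
  · let f : Fin p × Fin p → E := fun ij =>
      ⟨((U : L) ^ p) ^ (ij.1 : ℕ) * ((Gg : L) ^ p) ^ (ij.2 : ℕ), by
        refine ⟨(U ^ p) ^ (ij.1 : ℕ) * (Gg ^ p) ^ (ij.2 : ℕ), ?_, rfl⟩
        refine MonoidHom.mem_ker.2 (show ((U ^ p) ^ (ij.1 : ℕ) * (Gg ^ p) ^ (ij.2 : ℕ)) ^ p = 1 from ?_)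
        rw [hpow, pow_right_comm, pow_right_comm (Gg ^ p), ← pow_mul U, ← pow_mul Gg, ← pow_two,
          hJ2 U, hJ2 Gg, one_pow, one_pow, one_mul]⟩
    rw [← Nat.card_eq_of_bijective f ⟨?_, ?_⟩, Nat.card_prod, Nat.card_fin, pow_two]
    · rintro ⟨i, j⟩ ⟨i', j'⟩ h
      have h1 : (U ^ p) ^ (i : ℕ) * (Gg ^ p) ^ (j : ℕ) = (U ^ p) ^ (i' : ℕ) * (Gg ^ p) ^ (j' : ℕ) :=
        Subtype.ext (congrArg (fun z : E => (z : L)) h)
      have key : ∀ i i' j j' : ℕ, i < p → i' < p → j < p → j' < p → i' ≤ i →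
          (U ^ p) ^ i * (Gg ^ p) ^ j = (U ^ p) ^ i' * (Gg ^ p) ^ j' → i = i' ∧ j = j' := by
        intro i i' j j' hi hi' hj hj' hle he
        obtain ⟨d, rfl⟩ := Nat.exists_eq_add_of_le hle
        rw [pow_add, mul_assoc, mul_left_cancel_iff] at he
        rcases le_total j' j with hle' | hle'
        · obtain ⟨d', rfl⟩ := Nat.exists_eq_add_of_le hle'
          rw [add_comm j', pow_add, ← mul_assoc, mul_eq_right] at he
          obtain ⟨b1, b2⟩ := hind' d d' he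
          have := Nat.eq_zero_of_dvd_of_lt b1 (by omega)
          have := Nat.eq_zero_of_dvd_of_lt b2 (by omega)
          omega
        · obtain ⟨d', rfl⟩ := Nat.exists_eq_add_of_le hle'
          rw [add_comm j d', pow_add, mul_left_inj] at he
          -- `x^d = y^{d'}` gives `x^d y^{p - d'} = 1`
          have h2 : (U ^ p) ^ d * (Gg ^ p) ^ (p - d') = 1 := by
            rw [he, ← pow_add, Nat.add_sub_cancel' (by omega), ← pow_mul, ← pow_two]
            exact hJ2 Gg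
          obtain ⟨b1, b2⟩ := hind' d (p - d') h2
          have := Nat.eq_zero_of_dvd_of_lt b1 (by omega)
          rcases Nat.eq_zero_or_pos d' with hd0 | hd0
          · omega
          · have := Nat.eq_zero_of_dvd_of_lt b2 (by omega)
            omega
      rcases le_total (i' : ℕ) i with hle | hle
      · obtain ⟨e1, e2⟩ := key _ _ _ _ i.2 i'.2 j.2 j'.2 hle h1
        exact Prod.ext (Fin.ext e1) (Fin.ext e2)
      · obtain ⟨e1, e2⟩ := key _ _ _ _ i'.2 i.2 j'.2 j.2 hle h1.symm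
        exact Prod.ext (Fin.ext e1.symm) (Fin.ext e2.symm)
    · rintro ⟨e, he⟩
      obtain ⟨i, j, rfl⟩ := hroot e he
      refine ⟨(⟨i % p, Nat.mod_lt _ hp.pos⟩, ⟨j % p, Nat.mod_lt _ hp.pos⟩), Subtype.ext ?_⟩
      show ((U : L) ^ p) ^ (i % p) * ((Gg : L) ^ p) ^ (j % p) = _
      have e1 : ((U : L) ^ p) ^ p = 1 := by rw [← pow_mul, ← pow_two]; exact hu
      have e2 : ((Gg : L) ^ p) ^ p = 1 := by rw [← pow_mul, ← pow_two]; exact hg
      rw [← pow_eq_pow_mod i e1, ← pow_eq_pow_mod j e2]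

end Cfsg.Agent.MetaOmega
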