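import Cfsg.Agent.PGroup.Frattini
import Cfsg.Agent.PGroup.ClassTwo
import Mathlib.GroupTheory.Nilpotent

/-!
For odd `p`: a finite p-group whose elements of order `p` are central needs no more generators
than the rank of that subgroup (Thompson), and the centralizer of a maximal normal elementary
abelian subgroup has no further elements of order `p` (Alperin).
-/

set_option autoImplicit false
set_option linter.style.haveILetI false

namespace Cfsg.Agent.OmegaOdd

open Subgroup
open scoped commutatorElement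

universe u

variable {G : Type u} [Group G] [Finite G] {p : ℕ} [Fact p.Prime]

theorem exists_mem_ucs (hG : IsPGroup p G) (g : G) : ∃ j, g ∈ Subgroup.upperCentralSeries G j := by
  obtain ⟨n, hn⟩ := (hG.isNilpotent).nilpotent'
  exact ⟨n, hn ▸ mem_top g⟩

theorem mem_ucs_comm {j : ℕ} {g : G} (hg : g ∈ Subgroup.upperCentralSeries G (j + 1)) (x : G) :
    ⁅g, x⁆ ∈ Subgroup.upperCentralSeries G j := Subgroup.mem_upperCentralSeries_succ_iff.1 hg x

/-- Alperin: beyond a maximal normal elementary abelian subgroup there are no elements of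
order `p` in its centralizer. -/
theorem mem_of_pow_eq_one (hp : p ≠ 2) (hG : IsPGroup p G) {A : Subgroup G} [A.Normal]
    (hA1 : ∀ a ∈ A, ∀ b ∈ A, a * b = b * a) (hA2 : ∀ a ∈ A, a ^ p = 1)
    (hmax : ∀ B : Subgroup G, B.Normal → A ≤ B → (∀ a ∈ B, ∀ b ∈ B, a * b = b * a) →
      (∀ a ∈ B, a ^ p = 1) → B ≤ A)
    {x : G} (hx : x ^ p = 1) (hxc : x ∈ centralizer (A : Set G)) : x ∈ A := by
  classical
  have hodd : Odd p := (Fact.out : p.Prime).odd_of_ne_two hp
  obtain ⟨i, hi⟩ := exists_mem_ucs hG x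
  induction i using Nat.strong_induction_on generalizing x with
  | _ i ih =>
  rcases i with _ | i
  · rw [Subgroup.upperCentralSeries_zero, mem_bot] at hi
    exact hi ▸ one_mem A
  set C := centralizer (A : Set G)
  haveI : C.Normal := Subgroup.normal_centralizer (H := A)
  have key : ∀ j, ∀ g ∈ Subgroup.upperCentralSeries G j, ⁅g, x⁆ ∈ A := by
    intro j
    induction j with
    | zero =>
      intro g hg
      rw [Subgroup.upperCentralSeries_zero, mem_bot] at hg
      simp [hg]
    | succ j ihj =>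
      intro g hg
      set c := ⁅g, x⁆ with hc
      have hcC : c ∈ C := by
        rw [hc, commutatorElement_def]
        exact mul_mem ((inferInstance : C.Normal).conj_mem x hxc g) (inv_mem hxc)
      have hci : c ∈ Subgroup.upperCentralSeries G i := by
        rw [hc, ← commutatorElement_inv x g]
        exact inv_mem (mem_ucs_comm hi g)
      have hcj : ⁅c, x⁆ ∈ A := ihj c (mem_ucs_comm hg x)
      refine ih i (Nat.lt_succ_self i) ?_ hcC hci
      have hz : (⁅(⟨x, hxc⟩ : C), (⟨c, hcC⟩ : C)⁆) ∈ center C := by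
        refine mem_center_iff.2 fun d => Subtype.ext ?_
        have h1 : ⁅x, c⁆ ∈ A := by rw [← commutatorElement_inv c x]; exact inv_mem hcj
        exact (mem_centralizer_iff.1 d.2 _ h1).symm
      have hzp : (⁅(⟨x, hxc⟩ : C), (⟨c, hcC⟩ : C)⁆) ^ p = 1 := by
        refine Subtype.ext ?_
        show ⁅x, c⁆ ^ p = 1
        rw [← commutatorElement_inv c x, inv_pow, hA2 _ hcj, inv_one]
      have h2 := congrArg (Subgroup.subtype C) (PGroup.mul_pow_of_odd (x := (⟨c, hcC⟩ : C))
        (y := ⟨x, hxc⟩) hodd hz hzp)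
      simp only [map_mul, map_pow, Subgroup.coe_subtype] at h2
      rw [show c * x = g * x * g⁻¹ by rw [hc, commutatorElement_def, inv_mul_cancel_right], conj_pow, hx, mul_one,
        mul_inv_cancel, mul_one] at h2
      exact h2.symm
  have hcen : ∀ g : G, ⁅g, x⁆ ∈ A := fun g => by
    obtain ⟨j, hj⟩ := exists_mem_ucs hG g
    exact key j g hj
  have hn : (A ⊔ zpowers x).Normal := by
    refine ⟨fun y hy g => ?_⟩
    obtain ⟨a, ha, z, ⟨k, rfl⟩, rfl⟩ := mem_sup_of_normal_left.1 hy
    show g * (a * x ^ k) * g⁻¹ ∈ A ⊔ zpowers x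
    rw [show g * (a * x ^ k) * g⁻¹ = (g * a * g⁻¹) * (g * x * g⁻¹) ^ k by rw [conj_zpow]; group,
      show g * x * g⁻¹ = ⁅g, x⁆ * x by rw [commutatorElement_def, inv_mul_cancel_right]]
    exact mul_mem (mem_sup_left ((inferInstance : A.Normal).conj_mem a ha g))
      (zpow_mem (mul_mem (mem_sup_left (hcen g)) (mem_sup_right (mem_zpowers x))) k)
  have hmem : ∀ y ∈ A ⊔ zpowers x, ∃ a ∈ A, ∃ k : ℤ, y = a * x ^ k := fun y hy => by
    obtain ⟨a, ha, z, ⟨k, rfl⟩, rfl⟩ := mem_sup_of_normal_left.1 hy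
    exact ⟨a, ha, k, rfl⟩
  have hax : ∀ a ∈ A, ∀ k : ℤ, Commute a (x ^ k) := fun a ha k =>
    Commute.zpow_right (mem_centralizer_iff.1 hxc a ha : Commute a x) k
  refine hmax _ hn le_sup_left ?_ ?_ (mem_sup_right (mem_zpowers x))
  · intro y hy z hz
    obtain ⟨a, ha, k, rfl⟩ := hmem y hy
    obtain ⟨b, hb, l, rfl⟩ := hmem z hz
    exact ((Commute.mul_right (hA1 a ha b hb : Commute a b) (hax a ha l)).mul_left
      (Commute.mul_right (hax b hb k).symm ((Commute.refl x).zpow_zpow k l))).eq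
  · intro y hy
    obtain ⟨a, ha, k, rfl⟩ := hmem y hy
    rw [(hax a ha k).mul_pow, hA2 a ha, one_mul, ← zpow_natCast, ← zpow_mul, mul_comm, zpow_mul,
      zpow_natCast, hx, one_zpow]

/-- Two elements with the same `p`-th power of order `p` differ by an element of order `p`. -/
theorem div_pow_eq_one (hp : p ≠ 2) (hG : IsPGroup p G)
    (hΩ : ∀ z : G, z ^ p = 1 → z ∈ center G) {x y : G} (hxy : x ^ p = y ^ p)
    (hx : (x ^ p) ^ p = 1) : (x * y⁻¹) ^ p = 1 := by
  have hodd : Odd p := (Fact.out : p.Prime).odd_of_ne_two hp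
  have key : ∀ j, ∀ g ∈ Subgroup.upperCentralSeries G j, ∀ w : G, (w ^ p) ^ p = 1 → ⁅g, w⁆ ^ p = 1 := by
    intro j
    induction j with
    | zero =>
      intro g hg w _
      rw [Subgroup.upperCentralSeries_zero, mem_bot] at hg
      simp [hg]
    | succ j ih =>
      intro g hg w hw
      set c := ⁅g, w⁆ with hc
      have h1 := ih c (mem_ucs_comm hg w) w hw
      have h1' : ⁅w, c⁆ ^ p = 1 := by rw [← commutatorElement_inv c w, inv_pow, h1, inv_one]
      have h2 := PGroup.mul_pow_of_odd (x := c) (y := w) hodd (hΩ _ h1') h1'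
      rw [show c * w = g * w * g⁻¹ by rw [hc, commutatorElement_def, inv_mul_cancel_right], conj_pow,
        mem_center_iff.1 (hΩ _ hw) g, mul_inv_cancel_right] at h2
      exact mul_eq_right.1 h2.symm
  obtain ⟨j, hj⟩ := exists_mem_ucs hG y⁻¹
  have h1 := key j _ hj x hx
  rw [PGroup.mul_pow_of_odd hodd (hΩ _ h1) h1, inv_pow, hxy, mul_inv_cancel]

omit [Finite G] [Fact p.Prime] in
theorem omega_mul {a b : G} (hΩ : ∀ z : G, z ^ p = 1 → z ∈ center G) (ha : a ^ p = 1) (hb : b ^ p = 1) :
    (a * b) ^ p = 1 := by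
  have hc : Commute a b := mem_center_iff.1 (hΩ b hb) a
  rw [hc.mul_pow, ha, hb, mul_one]

/-- Thompson: `|K : Φ(K)|` is at most the number of solutions of `x ^ p = 1`. -/
theorem index_frattini_le (hp : p ≠ 2) : ∀ n : ℕ, ∀ (K : Type u) [Group K] [Finite K],
    Nat.card K = n → IsPGroup p K → (∀ z : K, z ^ p = 1 → z ∈ center K) →
    (frattini K).index ≤ Nat.card {z : K // z ^ p = 1} := by
  intro n
  induction n using Nat.strong_induction_on with
  | _ n ih =>
  intro K _ _ hn hK hΩ
  let Ω : Subgroup K :=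
    { carrier := {z | z ^ p = 1}
      one_mem' := one_pow p
      mul_mem' := fun {a b} ha hb => omega_mul hΩ ha hb
      inv_mem' := fun {a} (ha : a ^ p = 1) => show (a⁻¹) ^ p = 1 by rw [inv_pow, ha, inv_one] }
  have hΩc : Ω ≤ center K := fun z hz => hΩ z hz
  haveI : Ω.Normal := ⟨fun a ha g => by rw [mem_center_iff.1 (hΩc ha) g, mul_inv_cancel_right]; exact ha⟩
  haveI : Nonempty {z : K // z ^ p = 1} := ⟨⟨1, one_pow p⟩⟩
  by_cases hbot : Ω = ⊥
  · rcases subsingleton_or_nontrivial K with h | h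
    · rw [show frattini K = ⊤ from Subsingleton.elim _ _, index_top]
      exact Nat.card_pos
    · exfalso
      obtain ⟨k, hk⟩ := IsPGroup.iff_card.1 hK
      obtain ⟨z, hz⟩ := exists_prime_orderOf_dvd_card' (G := K) p (hk ▸ dvd_pow_self p (fun h0 => by
        rw [h0, pow_zero] at hk
        exact absurd hk (Finite.one_lt_card (α := K)).ne'))
      have : z ∈ Ω := (hz ▸ pow_orderOf_eq_one z : z ^ p = 1)
      rw [hbot, mem_bot] at this
      rw [this, orderOf_one] at hz
      exact (Fact.out : p.Prime).ne_one hz.symm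
  by_cases hle : Ω ≤ frattini K
  · have hsmall : Nat.card (K ⧸ Ω) < n := by
      rw [← hn, ← Subgroup.index_eq_card, ← Ω.card_mul_index]
      exact lt_mul_left (Nat.pos_of_ne_zero index_ne_zero_of_finite) ((one_lt_card_iff_ne_bot _).2 hbot)
    have hq : ∀ q : K ⧸ Ω, ∃ x : K, QuotientGroup.mk' Ω x = q := QuotientGroup.mk'_surjective Ω
    choose rep hrep using hq
    have hpow : ∀ q : K ⧸ Ω, q ^ p = 1 → (rep q ^ p) ^ p = 1 := fun q h => by
      rw [← hrep q, ← map_pow] at h
      exact (QuotientGroup.eq_one_iff _).1 h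
    have hΩ' : ∀ q : K ⧸ Ω, q ^ p = 1 → q ∈ center (K ⧸ Ω) := by
      intro q hq
      refine mem_center_iff.2 fun r => ?_
      obtain ⟨g, rfl⟩ := QuotientGroup.mk'_surjective Ω r
      rw [← hrep q, ← map_mul, ← map_mul]
      refine (QuotientGroup.eq.2 ?_)
      show (g * rep q)⁻¹ * (rep q * g) ∈ Ω
      have hz := hpow q hq
      have h1 := div_pow_eq_one hp hK hΩ (x := rep q) (y := g * rep q * g⁻¹)
        (by rw [conj_pow, mem_center_iff.1 (hΩ _ hz) g, mul_inv_cancel_right]) hz
      have h2 := (inferInstance : Ω.Normal).conj_mem _ (show rep q * (g * rep q * g⁻¹)⁻¹ ∈ Ω from h1)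
        ((g * rep q)⁻¹)
      convert h2 using 1
      group
    have hrec := ih _ hsmall (K ⧸ Ω) rfl (hK.to_quotient Ω) hΩ'
    have hind : (frattini (K ⧸ Ω)).index = (frattini K).index := by
      rw [← PGroup.map_frattini hK (QuotientGroup.mk' Ω) (QuotientGroup.mk'_surjective Ω),
        index_map_eq _ (QuotientGroup.mk'_surjective Ω) (by rwa [QuotientGroup.ker_mk'])]
    rw [← hind]
    refine hrec.trans ?_
    refine Nat.card_le_card_of_injective (fun q => ⟨rep q.1 ^ p, hpow q.1 q.2⟩) fun q r h => ?_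
    have h1 := div_pow_eq_one hp hK hΩ (congrArg Subtype.val h) (hpow q.1 q.2)
    refine Subtype.ext ?_
    rw [← hrep q.1, ← hrep r.1]
    refine QuotientGroup.eq.2 ?_
    have h2 := (inferInstance : Ω.Normal).conj_mem _ (inv_mem (show rep q.1 * (rep r.1)⁻¹ ∈ Ω from h1))
      ((rep q.1)⁻¹)
    convert h2 using 1
    group
  · obtain ⟨z, hz, hzΦ⟩ := SetLike.not_le_iff_exists.1 hle
    obtain ⟨M, hM, -, hzM⟩ := PGroup.exists_isCoatom_not_mem (Fact.out : p.Prime)
      (PGroup.commutator_le_frattini hK) (PGroup.pow_mem_frattini hK) hzΦ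
    have hidx := PGroup.index_of_isCoatom hK hM
    have hcard : Nat.card M < n := by
      rw [← hn, ← M.card_mul_index, hidx]
      exact lt_mul_right Nat.card_pos (Fact.out : p.Prime).one_lt
    have hrec := ih _ hcard M rfl (hK.to_subgroup M) fun m hm => mem_center_iff.2 fun g =>
      Subtype.ext (mem_center_iff.1 (hΩ (m : K) (by rw [← SubmonoidClass.coe_pow, hm]; rfl)) g)
    have h1 : (frattini K).index ≤ ((frattini M).map M.subtype).index :=
      Nat.le_of_dvd (Nat.pos_of_ne_zero index_ne_zero_of_finite)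
        (index_dvd_of_le (PGroup.map_subtype_frattini_le hK M))
    rw [index_map_subtype, hidx] at h1
    refine h1.trans ((Nat.mul_le_mul_right p hrec).trans ?_)
    let f : {m : M // m ^ p = 1} → ↥(Ω ⊓ M) := fun m =>
      ⟨m.1, (by show ((m.1 : K)) ^ p = 1; rw [← SubmonoidClass.coe_pow, m.2]; rfl), m.1.2⟩
    have hf : Function.Injective f := fun a b h =>
      Subtype.ext (Subtype.ext (congrArg (fun w : ↥(Ω ⊓ M) => (w : K)) h))
    refine (Nat.mul_le_mul_right p (Nat.card_le_card_of_injective f hf)).trans ?_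
    show _ ≤ Nat.card Ω
    obtain ⟨a, ha⟩ := IsPGroup.iff_card.1 (hK.to_subgroup Ω)
    obtain ⟨b, hb⟩ := IsPGroup.iff_card.1 (hK.to_subgroup (Ω ⊓ M))
    have hlt : b < a := by
      by_contra h
      have := eq_of_le_of_card_ge (inf_le_left : Ω ⊓ M ≤ Ω)
        (by rw [ha, hb]; exact Nat.pow_le_pow_right (Fact.out : p.Prime).pos (not_lt.1 h))
      exact hzM ((this.symm.le hz).2)
    rw [ha, hb, ← pow_succ]
    exact Nat.pow_le_pow_right (Fact.out : p.Prime).pos hlt

/-- A finite p-group (`p` odd) whose elements of order `p` are central and number at most `p ^ d`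
is generated by `d` elements. -/
theorem exists_generators_le (hp : p ≠ 2) (hG : IsPGroup p G)
    (hΩ : ∀ z : G, z ^ p = 1 → z ∈ center G) {d : ℕ} (hd : Nat.card {z : G // z ^ p = 1} ≤ p ^ d) :
    ∃ S : Finset G, S.card ≤ d ∧ closure (S : Set G) = ⊤ := by
  obtain ⟨e, he⟩ := hG.index (frattini G)
  obtain ⟨S, hS, hgen⟩ := PGroup.exists_generators hG he
  refine ⟨S, hS ▸ ?_, hgen⟩
  have := (index_frattini_le hp _ G rfl hG hΩ).trans hd
  rw [he] at this
  exact (Nat.pow_le_pow_iff_right (Fact.out : p.Prime).one_lt).1 this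

end Cfsg.Agent.OmegaOdd
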