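import Mathlib

/-!
A group of upper unitriangular `n × n` matrices over `ZMod p` is generated by at most `n² / 4`
elements: the indecomposable pivot positions form a triangle-free graph.
-/

set_option autoImplicit false

namespace Cfsg.Agent.UniPivot

open Subgroup Matrix
open scoped commutatorElement

theorem mantel {n : ℕ} : ∀ (V : Finset (Fin n)) (E : Finset (Fin n × Fin n)),
    (∀ e ∈ E, e.1 < e.2 ∧ e.1 ∈ V ∧ e.2 ∈ V) →
    (∀ i j l, (i, j) ∈ E → (j, l) ∈ E → (i, l) ∉ E) → E.card * 4 ≤ V.card * V.card := by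
  classical
  intro V
  induction hV : V.card using Nat.strong_induction_on generalizing V with
  | _ m ih =>
  intro E hE htri
  rcases E.eq_empty_or_nonempty with rfl | ⟨⟨a, b⟩, hab⟩
  · simp
  obtain ⟨hlt, ha, hb⟩ := hE _ hab
  simp only at hlt ha hb
  set V' := (V.erase a).erase b with hV'
  have hVc : V'.card + 2 = m := by
    rw [hV', Finset.card_erase_of_mem (Finset.mem_erase.2 ⟨hlt.ne', hb⟩), Finset.card_erase_of_mem ha]
    have : 2 ≤ V.card := Finset.one_lt_card.2 ⟨a, ha, b, hb, hlt.ne⟩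
    omega
  set E₁ := E.filter fun e => e.1 ∈ V' ∧ e.2 ∈ V'
  set E₂ := (E.filter fun e => ¬ (e.1 ∈ V' ∧ e.2 ∈ V')).erase (a, b)
  have h1 : E₁.card * 4 ≤ V'.card * V'.card := by
    refine ih V'.card (by omega) V' rfl E₁ (fun e he => ?_) fun i j l h h' h'' => ?_
    · exact ⟨(hE e (Finset.mem_filter.1 he).1).1, (Finset.mem_filter.1 he).2⟩
    · exact htri i j l (Finset.mem_filter.1 h).1 (Finset.mem_filter.1 h').1 (Finset.mem_filter.1 h'').1
  let f : Fin n × Fin n → Fin n := fun e => if e.1 = a ∨ e.1 = b then e.2 else e.1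
  have hE₂ : ∀ e ∈ E₂, f e ∈ V' ∧ (e = (a, f e) ∨ e = (b, f e) ∨ e = (f e, a) ∨ e = (f e, b)) := by
    rintro ⟨x, y⟩ he
    obtain ⟨hne, he'⟩ := Finset.mem_erase.1 he
    obtain ⟨heE, hout⟩ := Finset.mem_filter.1 he'
    obtain ⟨hxy, hx, hy⟩ := hE _ heE
    simp only at hxy hx hy hout
    simp only [hV', Finset.mem_erase] at hout ⊢
    by_cases h : x = a ∨ x = b
    · simp only [f, if_pos h]
      rcases h with rfl | rfl
      · exact ⟨⟨fun hyb => hne (by rw [hyb]), hxy.ne', hy⟩, Or.inl rfl⟩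
      · exact ⟨⟨hxy.ne', fun hya => absurd (hya ▸ hxy) (not_lt.2 hlt.le), hy⟩, Or.inr (Or.inl rfl)⟩
    · simp only [f, if_neg h]
      push Not at h
      refine ⟨⟨h.2, h.1, hx⟩, ?_⟩
      by_cases hya : y = a
      · exact Or.inr (Or.inr (Or.inl (by rw [hya])))
      · by_cases hyb : y = b
        · exact Or.inr (Or.inr (Or.inr (by rw [hyb])))
        · exact absurd ⟨⟨h.2, h.1, hx⟩, hyb, hya, hy⟩ hout
  have h2 : E₂.card ≤ V'.card := by
    refine Finset.card_le_card_of_injOn f (fun e he => (hE₂ e he).1) fun e he e' he' hee => ?_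
    obtain ⟨-, h⟩ := hE₂ e he
    obtain ⟨-, h'⟩ := hE₂ e' he'
    rw [← hee] at h'
    set x := f e
    have memE : ∀ z ∈ E₂, z ∈ E := fun z hz => (Finset.mem_filter.1 (Finset.mem_erase.1 hz).2).1
    have m1 := memE e he
    have m2 := memE e' he'
    have l1 := (hE e m1).1
    have l2 := (hE e' m2).1
    rcases h with h | h | h | h <;> rcases h' with h' | h' | h' | h' <;> rw [h, h'] <;>
      rw [h] at m1 l1 <;> rw [h'] at m2 l2 <;> simp only at l1 l2 <;>
      first
      | rfl
      | exact absurd (l1.trans l2) (lt_irrefl _)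
      | exact absurd (l2.trans l1) (lt_irrefl _)
      | exact absurd ((l1.trans l2).trans hlt) (lt_irrefl _)
      | exact absurd ((l2.trans l1).trans hlt) (lt_irrefl _)
      | exact absurd (htri _ _ _ m1 m2) (not_not.2 hab)
      | exact absurd (htri _ _ _ m2 m1) (not_not.2 hab)
      | exact absurd (htri _ _ _ hab m1) (not_not.2 m2)
      | exact absurd (htri _ _ _ hab m2) (not_not.2 m1)
      | exact absurd (htri _ _ _ m1 hab) (not_not.2 m2)
      | exact absurd (htri _ _ _ m2 hab) (not_not.2 m1)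
  have hcard : E.card ≤ E₁.card + E₂.card + 1 := by
    rw [← Finset.card_filter_add_card_filter_not (s := E) fun e => e.1 ∈ V' ∧ e.2 ∈ V', add_assoc]
    refine Nat.add_le_add_left ?_ _
    exact Finset.pred_card_le_card_erase.trans' le_rfl |> fun h => by
      have : ((E.filter fun e => ¬ (e.1 ∈ V' ∧ e.2 ∈ V')).card - 1) ≤ E₂.card := h
      omega
  nlinarith

variable {n : ℕ}

/-- Order of the positions: by distance to the diagonal, then by row. -/
def key (r c : Fin n) : ℕ := ((c : ℕ) - r) * n + r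

theorem key_le_iff (r c i l : Fin n) : key r c ≤ key i l ↔
    (c : ℕ) - r < (l : ℕ) - i ∨ ((c : ℕ) - r = (l : ℕ) - i ∧ (r : ℕ) ≤ i) := by
  unfold key
  have hr := r.2
  have hi := i.2
  rcases Nat.lt_trichotomy ((c : ℕ) - r) ((l : ℕ) - i) with h | h | h
  · have := Nat.mul_le_mul_right n h
    rw [Nat.succ_mul] at this
    omega
  · rw [h]; omega
  · have := Nat.mul_le_mul_right n h
    rw [Nat.succ_mul] at this
    omega

theorem key_lt_iff (r c i l : Fin n) : key r c < key i l ↔
    (c : ℕ) - r < (l : ℕ) - i ∨ ((c : ℕ) - r = (l : ℕ) - i ∧ (r : ℕ) < i) := by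
  rw [← not_le, key_le_iff]
  omega

theorem key_inj {r c i l : Fin n} (h1 : r < c) (h2 : i < l) (h : key r c = key i l) :
    r = i ∧ c = l := by
  have := (key_le_iff r c i l).1 h.le
  have := (key_le_iff i l r c).1 h.ge
  rw [Fin.lt_def] at h1 h2
  rw [Fin.ext_iff, Fin.ext_iff]
  omega

theorem key_bound (r c : Fin n) : key r c < n * n := by
  have h : (c : ℕ) - r + 1 ≤ n := by omega
  have := Nat.mul_le_mul_right n h
  rw [Nat.add_mul, Nat.one_mul] at this
  have := r.2
  unfold key
  omega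

theorem le_key_of_lt {r c : Fin n} (h : r < c) : n ≤ key r c := by
  have : 1 ≤ (c : ℕ) - r := by rw [Fin.lt_def] at h; omega
  exact (Nat.le_mul_of_pos_left n this).trans (Nat.le_add_right _ _)

theorem lt_of_le_key {r c : Fin n} (h : n ≤ key r c) : r < c := by
  by_contra hc
  rw [not_lt, Fin.le_def] at hc
  rw [key, Nat.sub_eq_zero_of_le hc, zero_mul, zero_add] at h
  omega

variable {R : Type*} [CommRing R]

/-- All entries before position number `m` vanish. -/
def Low (m : ℕ) (M : Matrix (Fin n) (Fin n) R) : Prop := ∀ r c, key r c < m → M r c = 0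

theorem Low.mono {m m' : ℕ} {M : Matrix (Fin n) (Fin n) R} (h : Low m' M) (hm : m ≤ m') : Low m M :=
  fun r c hk => h r c (hk.trans_le hm)

theorem Low.le_key {m : ℕ} {M : Matrix (Fin n) (Fin n) R} (h : Low m M) {r c : Fin n}
    (hne : M r c ≠ 0) : m ≤ key r c := not_lt.1 fun hk => hne (h r c hk)

theorem Low.mul {m : ℕ} {A B : Matrix (Fin n) (Fin n) R} (hA : Low m A) (hm : n ≤ m)
    (hB : Low n B) : Low (m + n) (A * B) := by
  intro r c hk
  rw [Matrix.mul_apply]
  refine Finset.sum_eq_zero fun x _ => ?_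
  by_contra hne
  have h1 := hA.le_key (left_ne_zero_of_mul hne)
  have h2 := lt_of_le_key (hm.trans h1)
  have h3 := lt_of_le_key (hB.le_key (right_ne_zero_of_mul hne))
  rw [Fin.lt_def] at h2 h3
  have h4 : ((x : ℕ) - r + 1) * n ≤ ((c : ℕ) - r) * n := Nat.mul_le_mul_right n (by omega)
  rw [Nat.add_mul, Nat.one_mul] at h4
  unfold key at h1 hk
  omega

theorem bracket {A B : Matrix (Fin n) (Fin n) R} {i j l : Fin n} (hij : i < j) (hjl : j < l)
    (hA : Low (key i j) A) (hB : Low (key j l) B) :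
    Low (key i l) (A * B - B * A) ∧ (A * B - B * A) i l = A i j * B j l := by
  rw [Fin.lt_def] at hij hjl
  have hij' : n ≤ key i j := le_key_of_lt (Fin.lt_def.2 hij)
  have hjl' : n ≤ key j l := le_key_of_lt (Fin.lt_def.2 hjl)
  have t1 : ∀ r x c, key r c ≤ key i l → A r x * B x c ≠ 0 → r = i ∧ x = j ∧ c = l := by
    intro r x c hk hne
    have e1 := hA.le_key (left_ne_zero_of_mul hne)
    have e2 := hB.le_key (right_ne_zero_of_mul hne)
    have g1 := lt_of_le_key (hij'.trans e1)
    have g2 := lt_of_le_key (hjl'.trans e2)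
    rw [Fin.lt_def] at g1 g2
    rw [key_le_iff] at e1 e2 hk
    simp only [Fin.ext_iff]
    omega
  have t2 : ∀ r x c, key r c ≤ key i l → B r x * A x c ≠ 0 → False := by
    intro r x c hk hne
    have e1 := hA.le_key (right_ne_zero_of_mul hne)
    have e2 := hB.le_key (left_ne_zero_of_mul hne)
    have g1 := lt_of_le_key (hij'.trans e1)
    have g2 := lt_of_le_key (hjl'.trans e2)
    rw [Fin.lt_def] at g1 g2
    rw [key_le_iff] at e1 e2 hk
    omega
  constructor
  · intro r c hk
    rw [Matrix.sub_apply, Matrix.mul_apply, Matrix.mul_apply, Finset.sum_eq_zero, Finset.sum_eq_zero,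
      sub_zero]
    · exact fun x _ => by_contra fun hne => t2 r x c hk.le hne
    · intro x _
      by_contra hne
      obtain ⟨rfl, -, rfl⟩ := t1 r x c hk.le hne
      exact lt_irrefl _ hk
  · rw [Matrix.sub_apply, Matrix.mul_apply, Matrix.mul_apply, Finset.sum_eq_single j,
      Finset.sum_eq_zero (s := Finset.univ) (f := fun x => B i x * A x l), sub_zero]
    · exact fun x _ => by_contra fun hne => t2 i x l le_rfl hne
    · exact fun x _ hx => by_contra fun hne => hx (t1 i x l le_rfl hne).2.1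
    · exact fun h => absurd (Finset.mem_univ j) h

variable {p : ℕ} [Fact p.Prime] {H : Type*} [Group H]

/-- A unitriangular group over `ZMod p` needs at most `n² / 4` generators. -/
theorem exists_generators (T : H →* Matrix (Fin n) (Fin n) (ZMod p))
    (hT : ∀ g r c, c ≤ r → T g r c = (1 : Matrix (Fin n) (Fin n) (ZMod p)) r c) :
    ∃ S : Finset H, S.card ≤ n * n / 4 ∧ ∀ g, ∃ k ∈ closure (S : Set H), T k = T g := by
  classical
  have hn : ∀ g, Low n (T g - 1) := fun g r c hk => by
    rw [Matrix.sub_apply, hT g r c (not_lt.1 fun h => (le_key_of_lt h).not_gt hk), sub_self]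
  have hmul : ∀ g h, T (g * h) - 1 = (T g - 1) + (T h - 1) + (T g - 1) * (T h - 1) := fun g h => by
    rw [map_mul]; noncomm_ring
  -- below `m + n` the map is additive
  have hadd : ∀ m, n ≤ m → ∀ g h, Low m (T g - 1) → ∀ r c, key r c < m + n →
      (T (g * h) - 1) r c = (T g - 1) r c + (T h - 1) r c := fun m hm g h hg r c hk => by
    rw [hmul, Matrix.add_apply, Matrix.add_apply, (hg.mul hm (hn h)) r c hk, add_zero]
  set piv : Finset (Fin n × Fin n) := Finset.univ.filter fun t =>
    t.1 < t.2 ∧ ∃ g, Low (key t.1 t.2) (T g - 1) ∧ (T g - 1) t.1 t.2 ≠ 0 with hpiv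
  have hpw : ∀ t ∈ piv, ∃ g, Low (key t.1 t.2) (T g - 1) ∧ (T g - 1) t.1 t.2 ≠ 0 :=
    fun t ht => (Finset.mem_filter.1 ht).2.2
  choose rep hrep using hpw
  set E := piv.filter fun t => ¬ ∃ j, (t.1, j) ∈ piv ∧ (j, t.2) ∈ piv with hE
  have hEcard : E.card ≤ n * n / 4 := by
    rw [Nat.le_div_iff_mul_le (by norm_num)]
    refine (mantel Finset.univ E (fun e he => ?_) fun i j l h h' h'' => ?_).trans (by simp)
    · exact ⟨(Finset.mem_filter.1 (Finset.mem_filter.1 he).1).2.1, Finset.mem_univ _, Finset.mem_univ _⟩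
    · exact (Finset.mem_filter.1 h'').2 ⟨j, (Finset.mem_filter.1 h).1, (Finset.mem_filter.1 h').1⟩
  let S : Finset H := E.attach.image fun t => rep t.1 (Finset.mem_filter.1 t.2).1
  refine ⟨S, Finset.card_image_le.trans (by rwa [Finset.card_attach]), ?_⟩
  set K := closure (S : Set H)
  -- every pivot is realised in `K`
  have hK : ∀ d, ∀ t ∈ piv, (t.2 : ℕ) - t.1 = d →
      ∃ k ∈ K, Low (key t.1 t.2) (T k - 1) ∧ (T k - 1) t.1 t.2 ≠ 0 := by
    intro d
    induction d using Nat.strong_induction_on with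
    | _ d ih =>
    rintro ⟨i, l⟩ ht hd
    by_cases hEt : (i, l) ∈ E
    · exact ⟨rep _ ht, subset_closure (Finset.mem_coe.2 (Finset.mem_image.2
        ⟨⟨(i, l), hEt⟩, Finset.mem_attach _ _, rfl⟩)), hrep _ ht⟩
    have hcomp : ∃ j, (i, j) ∈ piv ∧ (j, l) ∈ piv := by
      by_contra h
      exact hEt (Finset.mem_filter.2 ⟨ht, h⟩)
    obtain ⟨j, h1, h2⟩ := hcomp
    have hij : i < j := (Finset.mem_filter.1 h1).2.1
    have hjl : j < l := (Finset.mem_filter.1 h2).2.1
    have hij' := hij
    have hjl' := hjl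
    rw [Fin.lt_def] at hij' hjl'
    simp only at hd
    obtain ⟨g, hgK, hgL, hg0⟩ := ih _ (show (j : ℕ) - i < d by omega) (i, j) h1 rfl
    obtain ⟨h, hhK, hhL, hh0⟩ := ih _ (show (l : ℕ) - j < d by omega) (j, l) h2 rfl
    obtain ⟨hL, hval⟩ := bracket hij hjl hgL hhL
    simp only at hval hg0 hh0 ⊢
    set e := (T g - 1) * (T h - 1) - (T h - 1) * (T g - 1) with he
    have heq : T ⁅g, h⁆ - 1 = e + e * (T (h * g)⁻¹ - 1) := by
      rw [show ⁅g, h⁆ = (g * h) * (h * g)⁻¹ by rw [commutatorElement_def]; group, map_mul, mul_sub,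
        mul_one, add_sub_cancel]
      conv_lhs => arg 2; rw [← map_one T, ← mul_inv_cancel (h * g), map_mul]
      rw [← sub_mul, map_mul T g h, map_mul T h g]
      congr 1
      rw [he]
      noncomm_ring
    have hil := hij.trans hjl
    have hef : Low (key i l + n) (e * (T (h * g)⁻¹ - 1)) := hL.mul (le_key_of_lt hil) (hn _)
    have hnpos : 0 < n := i.pos
    refine ⟨⁅g, h⁆, ?_, fun r c hk => ?_, ?_⟩
    · rw [commutatorElement_def]
      exact mul_mem (mul_mem (mul_mem hgK hhK) (inv_mem hgK)) (inv_mem hhK)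
    · rw [heq, Matrix.add_apply, hL r c hk, hef r c (by omega), add_zero]
    · rw [heq, Matrix.add_apply, hval, hef i l (by omega), add_zero]
      exact mul_ne_zero hg0 hh0
  -- descending induction
  have main : ∀ q m, n ≤ m → n * n ≤ m + q → ∀ g, Low m (T g - 1) → ∃ k ∈ K, T k = T g := by
    intro q
    induction q with
    | zero =>
      intro m _ hm g hg
      refine ⟨1, one_mem K, ?_⟩
      rw [map_one, eq_comm, ← sub_eq_zero]
      ext r c
      exact hg r c ((key_bound r c).trans_le (by omega))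
    | succ q ih =>
      intro m hm hq g hg
      by_cases hz : ∀ r c, key r c = m → (T g - 1) r c = 0
      · exact ih (m + 1) (by omega) (by omega) g fun r c hk =>
          (Nat.lt_succ_iff_lt_or_eq.1 hk).elim (hg r c) (hz r c)
      push Not at hz
      obtain ⟨i, l, hkey, hne⟩ := hz
      have hil : i < l := lt_of_le_key (hkey ▸ hm)
      subst hkey
      obtain ⟨k₀, hk₀K, hk₀, hk₀ne⟩ := hK _ (i, l)
        (Finset.mem_filter.2 ⟨Finset.mem_univ _, hil, g, hg, hne⟩) rfl
      simp only at hk₀ne hk₀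
      have hnn : 0 < n := i.pos
      have hpow : ∀ s : ℕ, Low (key i l) (T (k₀ ^ s) - 1) ∧
          (T (k₀ ^ s) - 1) i l = (s : ZMod p) * (T k₀ - 1) i l := by
        intro s
        induction s with
        | zero => simp [Low]
        | succ s ihs =>
          constructor
          · intro r c hk
            rw [pow_succ, hadd _ hm _ _ ihs.1 r c (by omega), ihs.1 r c hk, hk₀ r c hk, add_zero]
          · rw [pow_succ, hadd _ hm _ _ ihs.1 i l (by omega), ihs.2, Nat.cast_succ, add_mul, one_mul]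
      obtain ⟨hxL, hxv⟩ := hpow (-(T g - 1) i l / (T k₀ - 1) i l).val
      rw [ZMod.natCast_zmod_val, div_mul_cancel₀ _ hk₀ne] at hxv
      set x := k₀ ^ (-(T g - 1) i l / (T k₀ - 1) i l).val with hx
      have hL' : Low (key i l + 1) (T (x * g) - 1) := by
        intro r c hk
        rcases Nat.lt_succ_iff_lt_or_eq.1 hk with hk | hk
        · rw [hadd _ hm _ _ hxL r c (by omega), hxL r c hk, hg r c hk, add_zero]
        · obtain ⟨rfl, rfl⟩ := key_inj (lt_of_le_key (hk.symm ▸ hm)) hil hk
          rw [hadd _ hm _ _ hxL r c (by omega), hxv, neg_add_cancel]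
      obtain ⟨k, hkK, hk⟩ := ih (key i l + 1) (by omega) (by omega) _ hL'
      refine ⟨x⁻¹ * k, mul_mem (inv_mem (pow_mem hk₀K _)) hkK, ?_⟩
      rw [map_mul, hk, ← map_mul, inv_mul_cancel_left]
  exact fun g => main (n * n) n le_rfl (by omega) g (hn g)

end Cfsg.Agent.UniPivot
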